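import Cfsg.Agent.H10.Local2
import Cfsg.Agent.H11.Syl
import Cfsg.Prelude.Def_HallClasses

/-!
# Pronormal subgroups
-/

set_option autoImplicit false

namespace Cfsg.Agent.H10

open Subgroup H11

variable {G : Type*} [Group G] {G' : Type*} [Group G']

/-- `H` and `H ^ g` are conjugate in their join -/
def PNat (H : Subgroup G) (g : G) : Prop := ∃ x ∈ H ⊔ cj g H, cj g H = cj x H

theorem isPronormal_iff {H : Subgroup G} : IsPronormal H ↔ ∀ g, PNat H g := Iff.rfl

theorem map_cj (f : G →* G') (g : G) (H : Subgroup G) : (cj g H).map f = cj (f g) (H.map f) := by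
  rw [cj, cj, map_map, map_map]; congr 1; ext x; simp

theorem PNat.of_mul {H : Subgroup G} {g y : G} (hy : y ∈ H ⊔ cj g H) (h : PNat H (y⁻¹ * g)) :
    PNat H g := by
  obtain ⟨w, hw, hwg⟩ := h
  have hw' : w ∈ H ⊔ cj g H := by
    refine (sup_le le_sup_left ?_ : _ ≤ H ⊔ cj g H) hw
    rw [cj_mul]
    exact conj_le_of_mem le_sup_right (le_normalizer (inv_mem hy))
  refine ⟨y * w, mul_mem hy hw', ?_⟩
  rw [cj_mul, ← hwg, ← cj_mul, mul_inv_cancel_left]

theorem PNat.of_eq {H : Subgroup G} {g g' : G} (e : cj g H = cj g' H) (h : PNat H g') :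
    PNat H g := by
  unfold PNat at h ⊢; rwa [e]

theorem PNat.map {H : Subgroup G} {g : G} (h : PNat H g) (f : G →* G') :
    PNat (H.map f) (f g) := by
  obtain ⟨x, hx, e⟩ := h
  refine ⟨f x, ?_, by rw [← map_cj, ← map_cj, e]⟩
  rw [← map_cj, ← Subgroup.map_sup]
  exact ⟨x, hx, rfl⟩

theorem PNat.of_map {H : Subgroup G} {g : G} (f : G →* G') (hk : f.ker ≤ H)
    (h : PNat (H.map f) (f g)) : PNat H g := by
  obtain ⟨x, hx, e⟩ := h
  rw [← map_cj, ← Subgroup.map_sup] at hx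
  obtain ⟨x, hx, rfl⟩ := hx
  have hk' : ∀ y, f.ker ≤ cj y H := fun y => by
    rw [← cj_eq_of_normal (H := f.ker) y]; exact cj_mono y hk
  refine ⟨x, hx, map_injective_of_ker_le f (hk' g) (hk' x) ?_⟩
  rw [map_cj, map_cj, e]

theorem pNat_subgroupOf_iff {H L : Subgroup G} (h : H ≤ L) (g : L) :
    PNat (H.subgroupOf L) g ↔ PNat H g := by
  have e : (H.subgroupOf L).map L.subtype = H := map_subgroupOf_eq_of_le h
  refine ⟨fun h1 => ?_, fun h1 => PNat.of_map L.subtype (by simp) ?_⟩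
  · have := h1.map L.subtype
    rwa [e] at this
  · rwa [e]

theorem isPronormal_map {H : Subgroup G} (h : IsPronormal H) {f : G →* G'}
    (hf : Function.Surjective f) : IsPronormal (H.map f) := fun g => by
  obtain ⟨g, rfl⟩ := hf g
  exact PNat.map (h g) f

theorem isPronormal_of_cj {H : Subgroup G} {c : G} (h : IsPronormal (cj c H)) :
    IsPronormal H := by
  have := isPronormal_map h (conj_surjective c⁻¹)
  rwa [conj_inv_conj] at this

theorem isPronormal_of_normalizer_le [Finite G] {p : ℕ} [Fact p.Prime] {S H : Subgroup G}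
    (hS : IsSylIn p S ⊤) (h : normalizer (S : Set G) ≤ H) : IsPronormal H := by
  intro g
  have hSH : S ≤ H := le_normalizer.trans h
  have h1 : IsSylIn p S (H ⊔ cj g H) := hS.of_le (hSH.trans le_sup_left) le_top
  have h2 : IsSylIn p (cj g S) (H ⊔ cj g H) :=
    (hS.cj_of_mem (cj_eq_iff.1 (cj_top g))).of_le ((cj_mono g hSH).trans le_sup_right) le_top
  obtain ⟨y, hy, e⟩ := h1.exists_cj_eq h2
  refine PNat.of_mul hy ⟨1, one_mem _, ?_⟩
  rw [cj_one]
  refine cj_eq_of_mem (h ?_)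
  rw [← cj_eq_iff, cj_mul, ← e, cj_inv_cj]

section Main

variable [Finite G] {p : ℕ} [Fact p.Prime] {A T : Subgroup G} [A.Normal]

theorem isSylIn_top_of_normalizer {P : Subgroup G} (hT : IsSylIn p T A)
    (hP : IsSylIn p P (normalizer (T : Set G))) : IsSylIn p P ⊤ := by
  obtain ⟨S, hS, hTS⟩ := exists_isSylIn_le hT.pg (le_top (a := T))
  have h1 : S ⊓ A = T := hT.eq (hS.pg.to_le inf_le_left) (le_inf hTS hT.le) inf_le_right
  have h2 : S ≤ normalizer (T : Set G) := by
    rw [← h1]; exact le_normalizer_inf le_normalizer le_normalizer_of_normal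
  exact hS.of_card_ge hP.pg le_top (hP.card_le hS.pg h2)

theorem pronormal_quot_iff (hT : IsSylIn p T A)
    [(T.subgroupOf (normalizer (T : Set G))).Normal] :
    (∀ K : Subgroup (normalizer (T : Set G) ⧸ T.subgroupOf (normalizer (T : Set G))),
      (∃ P : Sylow p (normalizer (T : Set G) ⧸ T.subgroupOf (normalizer (T : Set G))),
        (P : Subgroup _) ≤ K) → IsPronormal K) ↔
    ∀ K P : Subgroup G, IsSylIn p P ⊤ → P ≤ K → K ≤ normalizer (T : Set G) →
      ∀ g ∈ normalizer (T : Set G), PNat K g := by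
  set N := normalizer (T : Set G)
  let f := QuotientGroup.mk' (T.subgroupOf N)
  have hf : Function.Surjective f := QuotientGroup.mk'_surjective _
  constructor
  · intro h K P hP hPK hK g hg
    have hPN := hP.of_le (hPK.trans hK) le_top
    have hTP : T ≤ P := hPN.le_of_normalized hT.pg le_normalizer (hPK.trans hK)
    obtain ⟨P', hP'⟩ := hPN.exists_sylow
    refine (pNat_subgroupOf_iff hK ⟨g, hg⟩).1 (PNat.of_map f ?_ (h _ ⟨P'.mapSurjective hf, ?_⟩ _))
    · rw [QuotientGroup.ker_mk']; exact subgroupOf_mono _ (hTP.trans hPK)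
    · rw [Sylow.coe_mapSurjective, hP']; exact map_mono (subgroupOf_mono _ hPK)
  · rintro h K ⟨P, hP⟩
    obtain ⟨P, rfl⟩ := Sylow.mapSurjective_surjective hf p P
    rw [← map_comap_eq_self_of_surjective hf K]
    refine isPronormal_map (fun g => ?_) hf
    rw [← map_subtype_subgroupOf (K.comap f)]
    refine (pNat_subgroupOf_iff (map_subtype_le _) g).2 (h _ _
      (isSylIn_top_of_normalizer hT (isSylIn_map P)) (map_mono ?_) (map_subtype_le _) g g.2)
    exact map_le_iff_le_comap.1 hP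

theorem map_normalizer_eq_of_pronormal {K : Subgroup G} (h : IsPronormal K) :
    (normalizer (K : Set G)).map (QuotientGroup.mk' A) =
      normalizer ((K.map (QuotientGroup.mk' A) : Subgroup (G ⧸ A)) : Set (G ⧸ A)) := by
  refine le_antisymm (map_le_normalizer_map le_rfl _) fun g hg => ?_
  obtain ⟨g, rfl⟩ := QuotientGroup.mk'_surjective A g
  obtain ⟨x, hx, e⟩ := h g
  have h1 : QuotientGroup.mk' A x ∈ K.map (QuotientGroup.mk' A) := by
    have : QuotientGroup.mk' A x ∈ (K ⊔ cj g K).map (QuotientGroup.mk' A) := ⟨x, hx, rfl⟩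
    rwa [Subgroup.map_sup, map_cj, cj_eq_iff.2 hg, sup_idem] at this
  obtain ⟨k, hk, e2⟩ := h1
  refine ⟨k * (x⁻¹ * g), mul_mem (le_normalizer hk) ?_,
    by rw [map_mul, map_mul, map_inv, e2, mul_inv_cancel_left]⟩
  rw [← cj_eq_iff, cj_mul]
  change cj x⁻¹ (K.map _) = K
  rw [e]; exact cj_inv_cj _ _

theorem pronormal_of_ext (hT : IsSylIn p T A)
    (hA : ∀ K : Subgroup A, (∃ P : Sylow p A, (P : Subgroup A) ≤ K) → IsPronormal K)
    (hQ : ∀ K : Subgroup (G ⧸ A), (∃ P : Sylow p (G ⧸ A), (P : Subgroup _) ≤ K) → IsPronormal K)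
    (h1 : ∀ K P : Subgroup G, IsSylIn p P ⊤ → P ≤ K → K ≤ normalizer (T : Set G) →
      ∀ g ∈ normalizer (T : Set G), PNat K g)
    (h2 : ∀ K : Subgroup G, (∃ P : Sylow p G, (P : Subgroup G) ≤ K) →
      (normalizer (K : Set G)).map (QuotientGroup.mk' A) =
        normalizer ((K.map (QuotientGroup.mk' A) : Subgroup (G ⧸ A)) : Set (G ⧸ A)))
    (K : Subgroup G) (hK : ∃ P : Sylow p G, (P : Subgroup G) ≤ K) : IsPronormal K := by
  have hAn : ∀ X : Subgroup G, X ≤ normalizer (A : Set G) := fun X => le_normalizer_of_normal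
  suffices key : ∀ K P : Subgroup G, IsSylIn p P ⊤ → P ≤ K → T ≤ P → IsPronormal K by
    obtain ⟨P, hP⟩ := hK
    obtain ⟨c, -, hc⟩ := ((isSylIn_top P).inf_of_normalized le_top (hAn _)).exists_cj_eq hT
    exact isPronormal_of_cj (key _ _ ((isSylIn_top P).cj_of_mem (cj_eq_iff.1 (cj_top c)))
      (cj_mono c hP) (hc ▸ cj_mono c inf_le_left))
  intro K P hP hPK hTP
  obtain ⟨P', rfl⟩ := hP.exists_sylow_top
  have hPA : (P' : Subgroup G) ⊓ A = T :=
    hT.eq (hP.pg.to_le inf_le_left) (le_inf hTP hT.le) inf_le_right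
  have hPT : (P' : Subgroup G) ≤ normalizer (T : Set G) := by
    rw [← hPA]; exact le_normalizer_inf le_normalizer (hAn _)
  set D := K ⊓ A with hD
  have hTD : IsSylIn p T D := hT.of_le (le_inf (hTP.trans hPK) hT.le) inf_le_right
  have hKD : K ≤ normalizer (D : Set G) := le_normalizer_inf le_normalizer (hAn _)
  set K1 := K ⊓ normalizer (T : Set G) with hK1
  have hKe : K = D ⊔ K1 := by
    refine le_antisymm (fun k hk => ?_) (sup_le inf_le_left inf_le_left)
    obtain ⟨n, hn, h⟩ := hTD.frattini (hKD hk)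
    have : k = n⁻¹ * (n * k) := by group
    rw [this]
    exact mul_mem_sup (inv_mem hn) ⟨mul_mem hn.1 hk, h⟩
  have s3 : ∀ a ∈ normalizer (T : Set G), a ∈ normalizer (D : Set G) → PNat K a := by
    intro a ha haD
    obtain ⟨x, hx, e⟩ := h1 K1 P' hP (le_inf hPK hPT) inf_le_right a ha
    have hxD : x ∈ normalizer (D : Set G) := by
      refine (sup_le (inf_le_left.trans hKD) ?_ : _ ≤ normalizer (D : Set G)) hx
      exact conj_le_of_mem (inf_le_left.trans hKD) (le_normalizer haD)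
    refine ⟨x, sup_le_sup inf_le_left (cj_mono a inf_le_left) hx, ?_⟩
    rw [hKe, cj_sup, cj_sup, e, cj_eq_iff.2 haD, cj_eq_iff.2 hxD]
  have s2 : ∀ a ∈ normalizer (D : Set G), PNat K a := by
    intro a ha
    obtain ⟨d, hd, e⟩ := hTD.exists_cj_eq (hTD.cj_of_mem ha)
    refine PNat.of_mul (mem_sup_left hd.1) (s3 _ ?_ (mul_mem (inv_mem (le_normalizer hd)) ha))
    rw [← cj_eq_iff, cj_mul, ← e, cj_inv_cj]
  have s1 : ∀ a ∈ A, PNat K a := by
    intro a ha
    obtain ⟨T', hT'⟩ := hT.exists_sylow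
    obtain ⟨b, hb, e⟩ := (pNat_subgroupOf_iff (H := D) inf_le_right ⟨a, ha⟩).1
      (hA _ ⟨T', hT' ▸ subgroupOf_mono _ hTD.le⟩ _)
    refine PNat.of_mul (sup_le_sup inf_le_left (cj_mono a inf_le_left) hb) (s2 _ ?_)
    rw [← cj_eq_iff, cj_mul]
    change cj a D = _ at e
    rw [e, cj_inv_cj]
  intro g
  have hf := QuotientGroup.mk'_surjective A
  obtain ⟨y, hy, e⟩ := hQ (K.map (QuotientGroup.mk' A)) ⟨P'.mapSurjective hf, map_mono hPK⟩
    (QuotientGroup.mk' A g)
  change y ∈ _ ⊔ cj _ _ at hy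
  change cj _ _ = cj _ _ at e
  rw [← map_cj, ← Subgroup.map_sup] at hy
  obtain ⟨y, hy, rfl⟩ := hy
  refine PNat.of_mul hy ?_
  have h3 : QuotientGroup.mk' A (y⁻¹ * g) ∈
      normalizer ((K.map (QuotientGroup.mk' A) : Subgroup (G ⧸ A)) : Set (G ⧸ A)) := by
    rw [← cj_eq_iff, map_mul, cj_mul, e, map_inv, cj_inv_cj]
  rw [← h2 K ⟨P', hPK⟩] at h3
  obtain ⟨n, hn, e2⟩ := h3
  have h4 : y⁻¹ * g * n⁻¹ ∈ A := by
    rw [← QuotientGroup.eq_one_iff]
    change QuotientGroup.mk' A _ = 1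
    rw [map_mul, ← e2, map_inv, mul_inv_cancel]
  refine PNat.of_eq ?_ (s1 _ h4)
  rw [cj_mul _ n⁻¹, cj_eq_iff.2 (inv_mem hn)]

end Main

end Cfsg.Agent.H10
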